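import Cfsg.Agent.Lib.Cores.Basic
import Cfsg.Agent.Lib.Schur.CoverC

/-!
# Central extensions by corestriction, from words

The group `H0` acts on `Fin m ⊕ Fin N` (numbered with `Fin m` first) preserving the parts, its order is bounded by a
chain as in `Schur.CoverC`, and the action on `Fin m` is a point stabiliser in a group `G` of permutations of `Fin m`.
The lifts of two commuting elements of `G` are given by words; everything is checked point by point.
-/

set_option autoImplicit false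

namespace Cfsg.Agent.Lib.Cores

open Cfsg Subgroup
open Cfsg.Agent.Lib.PermComp.Core Cfsg.Agent.Lib.Schur Cfsg.Agent.Lib.Schur.CoverCert
  Cfsg.Agent.Lib.Schur.CoverC
open Cfsg.Agent.Lib.Schur.CoverH (EF EF_inr EF_inl mapsTo_of_rep rep_proj)

/-- The image of a point under a word, the last letter acting first. -/
noncomputable def evW (w mask : ℕ) (T : List ℕ) : List ℕ → ℕ → ℕ :=
  fun u => List.rec (motive := fun _ => ℕ → ℕ) (fun p => p)
    (fun a _ ih p => force (ih p) fun q => app w mask (nthN T a) q) u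

theorem evW_cons (w mask : ℕ) (T : List ℕ) (a : ℕ) (u : List ℕ) (p : ℕ) :
    evW w mask T (a :: u) p = app w mask (nthN T a) (evW w mask T u p) := by
  show force _ _ = _
  rw [force_eq]
  rfl

/-- Kernel friendly lookup in a list of words. -/
noncomputable def nthW (T : List (List ℕ)) : ℕ → List ℕ :=
  List.rec (motive := fun _ => ℕ → List ℕ) (fun _ => [])
    (fun a _ ih j => Nat.rec a (fun j' _ => ih j') j) T

theorem word_el {n w mask : ℕ} {α : Type*} {e : α ≃ Fin n} {K : Subgroup (Equiv.Perm α)} {T : List ℕ}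
    (hT : ∀ c ∈ T, ∃ g ∈ K, Rep w mask e c g) (u : List ℕ)
    (hu : allL (fun a => Nat.blt a T.length) u = true) :
    ∃ g ∈ K, ∀ a : α, evW w mask T u (e a) = e (g a) := by
  induction u with
  | nil => exact ⟨1, one_mem _, fun a => rfl⟩
  | cons a u ih =>
    have hu' := (allL_eq_true _ _).1 hu
    obtain ⟨g, hg, hr⟩ := ih ((allL_eq_true _ _).2 (fun b hb => hu' b (List.mem_cons_of_mem _ hb)))
    have ha : a < T.length := Nat.le_of_ble_eq_true (hu' a List.mem_cons_self)
    obtain ⟨x, hx, hxr⟩ := hT _ (nthN_mem T a ha)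
    refine ⟨x * g, mul_mem hx hg, fun y => ?_⟩
    rw [evW_cons, hr y]
    exact hxr _

/-- One row of the tables. -/
noncomputable def rowW (m w mask w' mask' kT : ℕ) (T Pts0 : List ℕ) (zc : ℕ)
    (TT : List ℕ) (WA WB : List (List ℕ)) (Te : List ℕ) (ga gb gai gbi : ℕ) (x : ℕ) : Bool :=
  force (app w' mask' gai x) fun ax =>
  force (app w' mask' gbi x) fun bx =>
  force (nthN TT x) fun tx =>
  force (nthN TT ax) fun tax =>
  force (nthN TT bx) fun tbx =>
  ifB (allL (fun a => Nat.blt a kT) (nthW WA x)) <|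
  ifB (allL (fun a => Nat.blt a kT) (nthW WB x)) <|
  ifB (allL (fun i => Nat.beq (app w' mask' tx (evW w mask T (nthW WA x) i))
    (app w' mask' ga (app w' mask' tax i))) Pts0) <|
  ifB (allL (fun i => Nat.beq (app w' mask' tx (evW w mask T (nthW WB x) i))
    (app w' mask' gb (app w' mask' tbx i))) Pts0) <|
  Nat.beq (evW w mask T (nthW WA x) (evW w mask T (nthW WB ax) m))
    (iterZ w mask zc (nthN Te x) (evW w mask T (nthW WB x) (evW w mask T (nthW WA bx) m)))

section Main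

variable {N m w mask L maskL idc w' mask' kT : ℕ}

theorem rowW_spec {T Pts0 : List ℕ} {zc : ℕ} {TT : List ℕ} {WA WB : List (List ℕ)} {Te : List ℕ}
    {ga gb gai gbi x : ℕ}
    (h : rowW m w mask w' mask' kT T Pts0 zc TT WA WB Te ga gb gai gbi x = true) :
    allL (fun a => Nat.blt a kT) (nthW WA x) = true ∧ allL (fun a => Nat.blt a kT) (nthW WB x) = true ∧
    (∀ i ∈ Pts0, app w' mask' (nthN TT x) (evW w mask T (nthW WA x) i) =
      app w' mask' ga (app w' mask' (nthN TT (app w' mask' gai x)) i)) ∧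
    (∀ i ∈ Pts0, app w' mask' (nthN TT x) (evW w mask T (nthW WB x) i) =
      app w' mask' gb (app w' mask' (nthN TT (app w' mask' gbi x)) i)) ∧
    evW w mask T (nthW WA x) (evW w mask T (nthW WB (app w' mask' gai x)) m) =
      iterZ w mask zc (nthN Te x)
        (evW w mask T (nthW WB x) (evW w mask T (nthW WA (app w' mask' gbi x)) m)) := by
  simp only [rowW, force_eq, ifB_eq_true] at h
  obtain ⟨h1, h2, h3, h4, h5⟩ := h
  refine ⟨h1, h2, ?_, ?_, Nat.eq_of_beq_eq_true h5⟩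
  · intro i hi
    exact Nat.eq_of_beq_eq_true ((allL_eq_true _ _).1 h3 i hi)
  · intro i hi
    exact Nat.eq_of_beq_eq_true ((allL_eq_true _ _).1 h4 i hi)

/-- The main theorem. -/
theorem exists_stem_of_words {k : ℕ} (hk : k.Prime)
    {gens : List (ℕ × ℕ × ℕ)} {prog : List (ℕ × ℕ × ℕ)} {ls : List CLev} {zc : ℕ} {Pts Pts0 : List ℕ}
    {twits : List (ℕ × List ℕ)}
    (hm : mask = 2 ^ w - 1) (hid : ∀ i < m + N, app w mask idc i = i)
    (hgens : allL (CoverH.blockOK N m w mask w' mask') gens = true)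
    (hinv : allL (fun t : ℕ × ℕ × ℕ => Nat.beq (comp (m + N) w mask t.2.1 t.1) idc) gens = true)
    (hslp : slpCheck (m + N) w mask idc (zc :: topGens (ls.map CLev.lev)) prog
      (gens.map (·.1)).reverse (gens.map (·.1)).length = true)
    (hchain : ChainP (m + N) w mask L maskL idc zc Pts ls)
    (htw : gensOK w mask L maskL zc Pts idc (ls.map CLev.lev) (gens.map (·.1)) twits = true)
    (hord : sizes ls = Nat.card (H w' mask' (Equiv.refl (Fin m)) (gens.map (·.2.2))))
    (hzb : allL (fun b => Nat.beq (app w mask zc b) b) (List.range m) = true)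
    (hzcomm : allL (fun t : ℕ × ℕ × ℕ => Nat.beq (comp (m + N) w mask zc t.1) (comp (m + N) w mask t.1 zc))
      gens = true)
    (hzk : Nat.beq (powC (m + N) w mask idc zc k) idc = true)
    (hN : 0 < N)
    (hzfree : allL (fun i => !(Nat.beq (app w mask zc (m + i)) (m + i))) (List.range N) = true)
    (hsub : ∀ x ∈ Pts0, x ∈ Pts)
    (hbase : ∀ g ∈ H w' mask' (Equiv.refl (Fin m)) (gens.map (·.2.2)),
      (∀ b : Fin m, (b : ℕ) ∈ Pts0 → g b = b) → g = 1)
    (hcov : ∀ i < N, ∃ r ∈ Pts, r < m + N ∧ ∃ j, iterZ w mask zc j r = m + i)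
    (G : Subgroup (Equiv.Perm (Fin m)))
    (hHG : H w' mask' (Equiv.refl (Fin m)) (gens.map (·.2.2)) ≤ G)
    (x0 : Fin m) {TT : List ℕ} {WA WB : List (List ℕ)} {Te : List ℕ}
    (hTT : ∀ x : Fin m, ∃ g ∈ G, Rep w' mask' (Equiv.refl (Fin m)) (nthN TT x) g ∧ g x0 = x)
    (hstab : ∀ g ∈ G, g x0 = x0 → g ∈ H w' mask' (Equiv.refl (Fin m)) (gens.map (·.2.2)))
    {ga gb gai gbi : ℕ} {g g' : Equiv.Perm (Fin m)} (hg : g ∈ G) (hg' : g' ∈ G)
    (hga : Rep w' mask' (Equiv.refl (Fin m)) ga g)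
    (hgb : Rep w' mask' (Equiv.refl (Fin m)) gb g')
    (hgai : Rep w' mask' (Equiv.refl (Fin m)) gai g⁻¹)
    (hgbi : Rep w' mask' (Equiv.refl (Fin m)) gbi g'⁻¹)
    (hgg : g * g' = g' * g)
    (hkT : (gens.map (·.1) ++ gens.map (·.2.1)).length = kT)
    (hrows : ∀ x < m, rowW m w mask w' mask' kT (gens.map (·.1) ++ gens.map (·.2.1)) Pts0 zc TT WA WB Te
      ga gb gai gbi x = true)
    (hsum : ¬ k ∣ ∑ x : Fin m, nthN Te x) :
    ∃ (Γ : Type) (_ : Group Γ) (_ : Finite Γ) (σ : Γ →* G), IsStemExtension σ ∧ Nat.card σ.ker = k := by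
  classical
  let e' : Fin m ≃ Fin m := Equiv.refl (Fin m)
  let E : Fin N ⊕ Fin m ≃ Fin (m + N) := EF e'
  set G' : Subgroup (Equiv.Perm (Fin m)) := H w' mask' e' (gens.map (·.2.2)) with hG'
  have hgen : ∀ t ∈ gens, goodPair (m + N) w mask t.1 t.2.1 = true ∧
      allL (fun i => Nat.ble m (app w mask t.1 (m + i))) (List.range N) = true ∧
      allL (fun b => Nat.beq (app w mask t.1 b) (app w' mask' t.2.2 b))
        (List.range m) = true := by
    intro t ht
    have := (allL_eq_true _ _).1 hgens t ht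
    simpa only [CoverH.blockOK, ifB_eq_true] using this
  set H0 : Subgroup (Equiv.Perm (Fin N ⊕ Fin m)) := H w mask E (gens.map (·.1)) with hH0
  -- the parts are preserved
  have hle : H0 ≤ (Equiv.Perm.sumCongrHom (Fin N) (Fin m)).range := by
    apply (Subgroup.closure_le _).2
    rintro g ⟨c, hc, hg⟩
    obtain ⟨t, ht, rfl⟩ := List.mem_map.1 hc
    exact mapsTo_of_rep e' hg (hgen t ht).2.1
  let π₀ : H0 →* Equiv.Perm (Fin m) := proj.comp (Subgroup.inclusion hle)
  have hπrep : ∀ (t : ℕ × ℕ × ℕ), t ∈ gens → ∀ (x : H0),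
      Rep w mask E t.1 (x : Equiv.Perm (Fin N ⊕ Fin m)) →
      Rep w' mask' e' t.2.2 (π₀ x) := by
    intro t ht x hx
    exact rep_proj e' (x := Subgroup.inclusion hle x) hx (hgen t ht).2.2
  have hgenH : ∀ (t : ℕ × ℕ × ℕ), t ∈ gens → ∃ x : H0,
      Rep w mask E t.1 (x : Equiv.Perm (Fin N ⊕ Fin m)) := by
    intro t ht
    obtain ⟨g, hg⟩ := exists_rep E (hgen t ht).1
    exact ⟨⟨g, H_of_rep (List.mem_map.2 ⟨t, ht, rfl⟩) hg⟩, hg⟩
  have hr : π₀.range = G' := by
    apply le_antisymm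
    · rintro _ ⟨x, rfl⟩
      have hclos : H0 ≤ ((G'.comap π₀).map H0.subtype) := by
        apply (Subgroup.closure_le _).2
        rintro g ⟨c, hc, hg⟩
        obtain ⟨t, ht, rfl⟩ := List.mem_map.1 hc
        have hgH : g ∈ H0 := Subgroup.subset_closure ⟨_, List.mem_map.2 ⟨t, ht, rfl⟩, hg⟩
        refine ⟨⟨g, hgH⟩, ?_, rfl⟩
        exact H_of_rep (List.mem_map.2 ⟨t, ht, rfl⟩) (hπrep t ht ⟨g, hgH⟩ hg)
      obtain ⟨y, hy, hyx⟩ := hclos x.2
      have : y = x := Subtype.ext hyx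
      rw [← this]
      exact hy
    · apply (Subgroup.closure_le _).2
      rintro g ⟨c, hc, hg⟩
      obtain ⟨t, ht, rfl⟩ := List.mem_map.1 hc
      obtain ⟨x, hx⟩ := hgenH t ht
      exact ⟨x, (hπrep t ht x hx).unique hg⟩
  -- the program
  have hT : ∀ c ∈ gens.map (·.1), ∃ g ∈ H0, Rep w mask E c g := by
    intro c hc
    obtain ⟨t, ht, rfl⟩ := List.mem_map.1 hc
    obtain ⟨g, hg⟩ := exists_rep E (hgen t ht).1
    exact ⟨g, H_of_rep (List.mem_map.2 ⟨t, ht, rfl⟩) hg, hg⟩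
  have hprog := slp_sound hm hid H0 _ prog (gens.map (·.1)).reverse (gens.map (·.1)).length (by simp)
    (fun c hc => hT c (List.mem_reverse.1 hc)) hslp
  -- the letters of the words
  have hT4 : ∀ c ∈ gens.map (·.1) ++ gens.map (·.2.1), ∃ g ∈ H0, Rep w mask E c g := by
    intro c hc
    rcases List.mem_append.1 hc with hc | hc
    · exact hT c hc
    · obtain ⟨t, ht, rfl⟩ := List.mem_map.1 hc
      obtain ⟨g, hg, hr'⟩ := hT _ (List.mem_map.2 ⟨t, ht, rfl⟩)
      refine ⟨g⁻¹, inv_mem hg, hr'.inv hm hid ?_⟩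
      exact Nat.eq_of_beq_eq_true ((allL_eq_true _ _).1 hinv t ht)
  -- the central element
  obtain ⟨gz, hgzH, hgz⟩ := hprog zc (by simp)
  let z : H0 := ⟨gz, hgzH⟩
  have hπz : π₀ z = 1 := by
    ext b
    have h1 := proj_apply (Subgroup.inclusion hle z) b
    have h2 : (π₀ z) b = (proj (Subgroup.inclusion hle z)) b := rfl
    have h3 := hgz (Sum.inr b)
    have h4 := (allL_eq_true _ _).1 hzb (e' b).1 (List.mem_range.2 (e' b).2)
    have h5 : app w mask zc (e' b).1 = (e' b).1 := Nat.eq_of_beq_eq_true h4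
    have h6 : ((E (Sum.inr b) : Fin (m + N)) : ℕ) = (e' b).1 := EF_inr e' b
    rw [h6, h5] at h3
    have h7 : (gz (Sum.inr b)) = Sum.inr b := by
      apply (E).injective
      apply Fin.ext
      rw [← h3, h6]
    have h8 : (Subgroup.inclusion hle z : Equiv.Perm (Fin N ⊕ Fin m)) = gz := rfl
    rw [h8, h7] at h1
    have h9 := Sum.inr.inj h1
    rw [h2, ← h9]
    rfl
  have hzc : ∀ g ∈ H0, gz * g = g * gz := by
    have hcl : H0 ≤ centralizer ({gz} : Set (Equiv.Perm (Fin N ⊕ Fin m))) := by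
      apply (Subgroup.closure_le _).2
      rintro g ⟨c, hc, hg⟩
      obtain ⟨t, ht, rfl⟩ := List.mem_map.1 hc
      rw [SetLike.mem_coe, mem_centralizer_singleton_iff]
      have h1 := (allL_eq_true _ _).1 hzcomm t ht
      have h2 := Nat.eq_of_beq_eq_true h1
      have h3 := hgz.comp hm hg
      rw [h2] at h3
      exact (hg.comp hm hgz).unique h3
    intro g hg
    exact (mem_centralizer_singleton_iff.1 (hcl hg)).symm
  have hzcent : z ∈ center H0 := by
    rw [mem_center_iff]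
    intro y
    apply Subtype.ext
    exact (hzc y.1 y.2).symm
  let P0 : Fin N ⊕ Fin m := Sum.inl ⟨0, hN⟩
  have hEP0 : m = ((E P0 : Fin (m + N)) : ℕ) := by
    have h6 : ((E P0 : Fin (m + N)) : ℕ) = m + 0 := EF_inl e' _
    rw [h6]
    rfl
  have hzne : ∀ i : Fin N, gz (Sum.inl i) ≠ Sum.inl i := by
    intro i h
    have h1 := (allL_eq_true _ _).1 hzfree i.1 (List.mem_range.2 i.2)
    have h2 := hgz (Sum.inl i)
    rw [h] at h2
    have h6 : ((E (Sum.inl i) : Fin (m + N)) : ℕ) = m + i.1 := EF_inl e' i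
    rw [h6] at h2
    rw [h2, Nat.beq_refl] at h1
    exact Bool.noConfusion h1
  have hz1 : z ≠ 1 := by
    intro h
    have h1 : gz = 1 := congrArg Subtype.val h
    apply hzne ⟨0, hN⟩
    rw [h1]
    rfl
  have hzorder : orderOf z = k := by
    have := Fact.mk hk
    apply orderOf_eq_prime
    · apply Subtype.ext
      have h1 := Rep_pow hm hid hgz k
      exact h1.eq_one hid (Nat.eq_of_beq_eq_true hzk)
    · exact hz1
  -- elements of `H0` agreeing on the points are equal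
  have hag : ∀ a ∈ H0, ∀ b ∈ H0, (∀ x, ((E x : Fin (m + N)) : ℕ) ∈ Pts → a x = b x) → a = b := by
    intro a ha b hb hab
    have hπa : π₀ ⟨a, ha⟩ ∈ G' := hr ▸ ⟨_, rfl⟩
    have hπb : π₀ ⟨b, hb⟩ ∈ G' := hr ▸ ⟨_, rfl⟩
    have hproj : ∀ (c : H0) (x : Fin m), (c : Equiv.Perm (Fin N ⊕ Fin m)) (Sum.inr x) = Sum.inr (π₀ c x) := by
      intro c x
      exact proj_apply (Subgroup.inclusion hle c) x
    have hone : (π₀ ⟨b, hb⟩)⁻¹ * π₀ ⟨a, ha⟩ = 1 := by
      apply hbase _ (mul_mem (inv_mem hπb) hπa)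
      intro x hx
      have h1 : ((E (Sum.inr x) : Fin (m + N)) : ℕ) ∈ Pts := by
        have h6 : ((E (Sum.inr x) : Fin (m + N)) : ℕ) = (e' x).1 := EF_inr e' x
        rw [h6]
        exact hsub _ hx
      have h2 := hab _ h1
      have h3 := hproj ⟨a, ha⟩ x
      have h4 := hproj ⟨b, hb⟩ x
      simp only at h3 h4
      rw [h3, h4] at h2
      have h5 := Sum.inr.inj h2
      rw [Equiv.Perm.mul_apply, h5]
      simp
    have hpeq : π₀ ⟨a, ha⟩ = π₀ ⟨b, hb⟩ := (inv_mul_eq_one.1 hone).symm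
    ext x
    cases x with
    | inr x =>
      have h3 := hproj ⟨a, ha⟩ x
      have h4 := hproj ⟨b, hb⟩ x
      simp only at h3 h4
      rw [h3, h4, hpeq]
    | inl i =>
      obtain ⟨r, hr', hrlt, j, hj⟩ := hcov i.1 i.2
      let xr : Fin N ⊕ Fin m := (E).symm ⟨r, hrlt⟩
      have hxr : ((E xr : Fin (m + N)) : ℕ) = r := by simp [xr]
      have hiter := iterZ_spec (e := E) hgz j xr
      rw [hxr, hj] at hiter
      have hinl : gz ^ j • xr = Sum.inl i := by
        apply (E).injective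
        apply Fin.ext
        have h6 : ((E (Sum.inl i) : Fin (m + N)) : ℕ) = m + i.1 := EF_inl e' i
        rw [h6, hiter]
        rfl
      have hcomm_a : Commute gz a := (hzc a ha)
      have hcomm_b : Commute gz b := (hzc b hb)
      have h7 : a (Sum.inl i) = (gz ^ j) (a xr) := by
        rw [← hinl]
        show a ((gz ^ j) xr) = _
        have := ((hcomm_a.pow_left j).eq)
        have h8 := congrArg (fun f : Equiv.Perm _ => f xr) this
        simpa [Equiv.Perm.mul_apply] using h8.symm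
      have h9 : b (Sum.inl i) = (gz ^ j) (b xr) := by
        rw [← hinl]
        show b ((gz ^ j) xr) = _
        have := ((hcomm_b.pow_left j).eq)
        have h8 := congrArg (fun f : Equiv.Perm _ => f xr) this
        simpa [Equiv.Perm.mul_apply] using h8.symm
      rw [h7, h9, hab xr (by rw [hxr]; exact hr')]
  -- the chain
  have hrepS : ∀ c ∈ topGens (ls.map CLev.lev), ∃ g ∈ H0, Rep w mask E c g := fun c hc =>
    hprog c (by simp [hc])
  have hK0 : KK w mask E zc (ls.map CLev.lev) ≤ H0 := by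
    apply (Subgroup.closure_le _).2
    rintro g ⟨c, hc, hg⟩
    rcases List.mem_cons.1 hc with rfl | hc
    · rw [hg.unique hgz]
      exact hgzH
    · obtain ⟨g', hg', hr'⟩ := hrepS c hc
      rw [hg.unique hr']
      exact hg'
  obtain ⟨hLS, hcardc⟩ := chain_spec (e := E) (P := Pts) (L := L) (maskL := maskL) (idc := idc) hm hid H0 hag hgz hzc ls hK0
    (fun c hc => (hrepS c hc).imp fun g hg => hg.2) hchain
  have hH0K : H0 ≤ KK w mask E zc (ls.map CLev.lev) := by
    apply (Subgroup.closure_le _).2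
    rintro g ⟨c, hc, hg⟩
    obtain ⟨a, ha⟩ := gensOK_spec _ _ _ _ htw c hc
    simp only [relOK, ifB_eq_true] at ha
    obtain ⟨hv, hp'⟩ := ha
    obtain ⟨W, hW, hw⟩ := walk_spec hgz a.1 _ _ hLS hv
    have hgH : g ∈ H0 := H_of_rep hc hg
    have : g = W := by
      apply hag _ hgH _ (hK0 hW)
      intro x hx
      have h6 := (allL_eq_true _ _).1 hp' _ hx
      have h7 := Nat.eq_of_beq_eq_true h6
      rw [hw x] at h7
      have h8 : app w mask idc (E x) = E x := hid _ (E x).2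
      rw [h8, hg x] at h7
      have h9 := (E).injective (Fin.ext h7)
      exact h9
    rw [this]
    exact hW
  have hKz : Nat.card (KK w mask E zc []) = k := by
    have : KK w mask E zc [] = zpowers gz := by
      rw [zpowers_eq_closure]
      show Subgroup.closure _ = _
      congr 1
      ext g
      constructor
      · rintro ⟨c, hc, hg⟩
        have : c = zc := by simpa [topGens] using hc
        subst this
        exact hg.unique hgz
      · intro hg
        have : g = gz := hg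
        subst this
        exact ⟨zc, by simp, hgz⟩
    rw [this, Nat.card_zpowers]
    have h1 : orderOf gz = orderOf z := (Subgroup.orderOf_mk _ _).symm
    rw [h1, hzorder]
  have hfin : Finite H0 := inferInstance
  have hcardle : Nat.card H0 ≤ k * Nat.card G' := by
    have h1 : Nat.card H0 ≤ Nat.card (KK w mask E zc (ls.map CLev.lev)) :=
      Subgroup.card_le_of_le hH0K
    rw [hKz, hord, mul_comm] at hcardc
    exact h1.trans hcardc
  -- the kernel
  have hker1 : Nat.card π₀.ker * Nat.card G' = Nat.card H0 := by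
    have h1 := Subgroup.card_mul_index π₀.ker
    rwa [Subgroup.index_ker, hr] at h1
  have hzkerle : k ≤ Nat.card π₀.ker := by
    have h2 : zpowers z ≤ π₀.ker := by
      rw [zpowers_le]
      exact hπz
    have h3 := Subgroup.card_le_of_le h2
    rwa [Nat.card_zpowers, hzorder] at h3
  have hcardker0 : Nat.card π₀.ker = k := by
    apply le_antisymm _ hzkerle
    rw [← hker1] at hcardle
    exact Nat.le_of_mul_le_mul_right hcardle Nat.card_pos
  -- the homomorphism to `G`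
  have hmemG : ∀ x, π₀ x ∈ G := fun x => hHG (by rw [← hr]; exact ⟨x, rfl⟩)
  let π : H0 →* G := π₀.codRestrict G hmemG
  have hkerπ : π.ker = π₀.ker := MonoidHom.ker_codRestrict _ _ _
  have hcardker : Nat.card π.ker = k := by
    rw [hkerπ]
    exact hcardker0
  have hzker : z ∈ π.ker := by
    rw [hkerπ]
    exact hπz
  have hgenker : ∀ y ∈ π.ker, ∃ n : ℤ, z ^ n = y := by
    intro y hy
    have := Fact.mk hk
    let z' : π.ker := ⟨z, hzker⟩
    let y' : π.ker := ⟨y, hy⟩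
    have hz' : z' ≠ 1 := fun h => hz1 (congrArg Subtype.val h)
    obtain ⟨n, hn⟩ := Subgroup.mem_zpowers_iff.1 (mem_zpowers_of_prime_card hcardker (g := z') (g' := y') hz')
    exact ⟨n, congrArg Subtype.val hn⟩
  have hZ : π.ker ≤ center H0 := by
    intro y hy
    obtain ⟨n, hn⟩ := hgenker y hy
    rw [← hn]
    exact Subgroup.zpow_mem _ hzcent n
  -- reading the action on `Fin m` off a code
  have hprojp : ∀ (x : H0) (b : Fin m),
      (x : Equiv.Perm (Fin N ⊕ Fin m)) (Sum.inr b) = Sum.inr (π₀ x b) := by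
    intro x b
    exact proj_apply (Subgroup.inclusion hle x) b
  -- the transversal
  choose τ hτG hτR hτ0 using hTT
  let t : Fin m → G := fun x => ⟨τ x, hτG x⟩
  have ht : ∀ x, t x • x0 = x := hτ0
  have hr' : ∀ h : G, h • x0 = x0 → h ∈ π.range := by
    intro h hh
    have h1 : (h : Equiv.Perm (Fin m)) ∈ π₀.range := by
      rw [hr]
      exact hstab h.1 h.2 hh
    obtain ⟨y, hy⟩ := h1
    exact ⟨y, Subtype.ext hy⟩
  -- the tables
  have hAex : ∀ x : Fin m, ∃ u ∈ H0, ∀ a, evW w mask (gens.map (·.1) ++ gens.map (·.2.1)) (nthW WA x) (E a) =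
      E (u a) := by
    intro x
    obtain ⟨h1, -⟩ := rowW_spec (hrows x.1 x.2)
    rw [← hkT] at h1
    exact word_el hT4 _ h1
  have hBex : ∀ x : Fin m, ∃ u ∈ H0, ∀ a, evW w mask (gens.map (·.1) ++ gens.map (·.2.1)) (nthW WB x) (E a) =
      E (u a) := by
    intro x
    obtain ⟨-, h1, -⟩ := rowW_spec (hrows x.1 x.2)
    rw [← hkT] at h1
    exact word_el hT4 _ h1
  choose A' hA'm hAR using hAex
  choose B' hB'm hBR using hBex
  let A : Fin m → H0 := fun x => ⟨A' x, hA'm x⟩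
  let B : Fin m → H0 := fun x => ⟨B' x, hB'm x⟩
  let g₁ : G := ⟨g, hg⟩
  let g₂ : G := ⟨g', hg'⟩
  have hgi1 : ∀ x : Fin m, app w' mask' gai x = ((g⁻¹ x : Fin m) : ℕ) := fun x => hgai x
  have hgi2 : ∀ x : Fin m, app w' mask' gbi x = ((g'⁻¹ x : Fin m) : ℕ) := fun x => hgbi x
  have hτc : ∀ (x y : Fin m), app w' mask' (nthN TT x) y = ((τ x y : Fin m) : ℕ) := fun x y => hτR x y
  have hgac : ∀ y : Fin m, app w' mask' ga y = ((g y : Fin m) : ℕ) := fun y => hga y
  have hgbc : ∀ y : Fin m, app w' mask' gb y = ((g' y : Fin m) : ℕ) := fun y => hgb y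
  have hEi : ∀ b : Fin m, ((E (Sum.inr b) : Fin (m + N)) : ℕ) = (b : ℕ) := fun b => EF_inr e' b
  -- the lifts read on the points of `Fin m`
  have hAv : ∀ (x b : Fin m), evW w mask (gens.map (·.1) ++ gens.map (·.2.1)) (nthW WA x) b = ((π₀ (A x) b : Fin m) : ℕ) := by
    intro x b
    have h1 := hAR x (Sum.inr b)
    rw [hEi] at h1
    have h2 : A' x (Sum.inr b) = Sum.inr (π₀ (A x) b) := hprojp (A x) b
    rw [h2, hEi] at h1
    exact h1
  have hBv : ∀ (x b : Fin m), evW w mask (gens.map (·.1) ++ gens.map (·.2.1)) (nthW WB x) b = ((π₀ (B x) b : Fin m) : ℕ) := by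
    intro x b
    have h1 := hBR x (Sum.inr b)
    rw [hEi] at h1
    have h2 : B' x (Sum.inr b) = Sum.inr (π₀ (B x) b) := hprojp (B x) b
    rw [h2, hEi] at h1
    exact h1
  -- equality in the stabiliser from the base points
  have hbase2 : ∀ {X Y : Equiv.Perm (Fin m)}, X ∈ G' → Y ∈ G' → (∀ b : Fin m, (b : ℕ) ∈ Pts0 → X b = Y b) → X = Y := by
    intro X Y hX hY h
    have h1 : Y⁻¹ * X = 1 := by
      apply hbase _ (mul_mem (inv_mem hY) hX)
      intro b hb
      rw [Equiv.Perm.mul_apply, h b hb]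
      simp
    exact (inv_mul_eq_one.1 h1).symm
  have hA : ∀ x, π (A x) = (t x)⁻¹ * g₁ * t (g₁⁻¹ • x) := by
    intro x
    obtain ⟨-, -, h3, -, -⟩ := rowW_spec (hrows x.1 x.2)
    apply Subtype.ext
    show π₀ (A x) = (τ x)⁻¹ * g * τ (g⁻¹ x)
    refine hbase2 (by rw [← hr]; exact ⟨_, rfl⟩) (hstab _ (mul_mem (mul_mem (inv_mem (hτG x)) hg) (hτG _)) ?_) ?_
    · rw [Equiv.Perm.mul_apply, Equiv.Perm.mul_apply, hτ0]
      have h0 : g (g⁻¹ x) = x := by simp
      rw [h0, Equiv.Perm.inv_eq_iff_eq, hτ0]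
    · intro b hb
      have h2 := h3 b hb
      rw [hgi1 x, hτc (g⁻¹ x) b, hgac, hAv x b, hτc x] at h2
      have h4 : τ x (π₀ (A x) b) = g (τ (g⁻¹ x) b) := Fin.ext h2
      rw [Equiv.Perm.mul_apply, Equiv.Perm.mul_apply, Equiv.Perm.eq_inv_iff_eq, h4]
  have hB : ∀ x, π (B x) = (t x)⁻¹ * g₂ * t (g₂⁻¹ • x) := by
    intro x
    obtain ⟨-, -, -, h3, -⟩ := rowW_spec (hrows x.1 x.2)
    apply Subtype.ext
    show π₀ (B x) = (τ x)⁻¹ * g' * τ (g'⁻¹ x)
    refine hbase2 (by rw [← hr]; exact ⟨_, rfl⟩) (hstab _ (mul_mem (mul_mem (inv_mem (hτG x)) hg') (hτG _)) ?_) ?_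
    · rw [Equiv.Perm.mul_apply, Equiv.Perm.mul_apply, hτ0]
      have h0 : g' (g'⁻¹ x) = x := by simp
      rw [h0, Equiv.Perm.inv_eq_iff_eq, hτ0]
    · intro b hb
      have h2 := h3 b hb
      rw [hgi2 x, hτc (g'⁻¹ x) b, hgbc, hBv x b, hτc x] at h2
      have h4 : τ x (π₀ (B x) b) = g' (τ (g'⁻¹ x) b) := Fin.ext h2
      rw [Equiv.Perm.mul_apply, Equiv.Perm.mul_apply, Equiv.Perm.eq_inv_iff_eq, h4]
  have hgg' : g₁ * g₂ = g₂ * g₁ := Subtype.ext hgg
  have hfiber : ∀ (y : H0) (i : Fin N), ∃ j : Fin N, (y : Equiv.Perm (Fin N ⊕ Fin m)) (Sum.inl i) = Sum.inl j := by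
    intro y i
    obtain ⟨⟨a, b⟩, hab⟩ := hle y.2
    refine ⟨a i, ?_⟩
    rw [← hab]
    rfl
  have hC : ∀ x, A x * B (g₁⁻¹ • x) = z ^ (nthN Te x) * (B x * A (g₂⁻¹ • x)) := by
    intro x
    obtain ⟨-, -, -, -, h7⟩ := rowW_spec (hrows x.1 x.2)
    rw [hgi1 x, hgi2 x] at h7
    set U : H0 := A x * B (g₁⁻¹ • x) with hU
    set V : H0 := B x * A (g₂⁻¹ • x) with hV
    have hUV : π U = π V := by
      rw [hU, hV, map_mul, map_mul, hA, hB, hA, hB]
      have e1 : g₂⁻¹ • (g₁⁻¹ • x) = g₁⁻¹ • (g₂⁻¹ • x) := by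
        rw [← mul_smul, ← mul_smul, ← mul_inv_rev, ← mul_inv_rev, hgg']
      rw [e1]
      have e2 : (t x)⁻¹ * g₁ * t (g₁⁻¹ • x) * ((t (g₁⁻¹ • x))⁻¹ * g₂ * t (g₁⁻¹ • g₂⁻¹ • x)) =
          (t x)⁻¹ * (g₁ * g₂) * t (g₁⁻¹ • g₂⁻¹ • x) := by group
      have e3 : (t x)⁻¹ * g₂ * t (g₂⁻¹ • x) * ((t (g₂⁻¹ • x))⁻¹ * g₁ * t (g₁⁻¹ • g₂⁻¹ • x)) =
          (t x)⁻¹ * (g₂ * g₁) * t (g₁⁻¹ • g₂⁻¹ • x) := by group
      rw [e2, e3, hgg']
    have hker : U * V⁻¹ ∈ π.ker := by
      rw [MonoidHom.mem_ker, map_mul, map_inv, hUV, mul_inv_cancel]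
    obtain ⟨n, hn⟩ := hgenker _ hker
    have hUeq : U = z ^ n * V := by
      rw [hn]
      group
    -- the point check
    have hPU : (U : Equiv.Perm (Fin N ⊕ Fin m)) P0 = (gz ^ (nthN Te x)) ((V : Equiv.Perm (Fin N ⊕ Fin m)) P0) := by
      apply (E).injective
      apply Fin.ext
      have h8 := iterZ_spec (e := E) hgz (nthN Te x) ((V : Equiv.Perm (Fin N ⊕ Fin m)) P0)
      rw [← h8]
      have h9 : ((E ((U : Equiv.Perm (Fin N ⊕ Fin m)) P0) : Fin (m + N)) : ℕ) =
          evW w mask (gens.map (·.1) ++ gens.map (·.2.1)) (nthW WA x)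
            (evW w mask (gens.map (·.1) ++ gens.map (·.2.1)) (nthW WB ((g⁻¹ x : Fin m) : ℕ)) m) := by
        have h0 : evW w mask (gens.map (·.1) ++ gens.map (·.2.1)) (nthW WB ((g⁻¹ x : Fin m) : ℕ)) m =
            E (B' (g⁻¹ x) P0) := by
          have := hBR (g⁻¹ x) P0
          rwa [← hEP0] at this
        rw [h0, hAR x]
        rfl
      have h10 : ((E ((V : Equiv.Perm (Fin N ⊕ Fin m)) P0) : Fin (m + N)) : ℕ) =
          evW w mask (gens.map (·.1) ++ gens.map (·.2.1)) (nthW WB x)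
            (evW w mask (gens.map (·.1) ++ gens.map (·.2.1)) (nthW WA ((g'⁻¹ x : Fin m) : ℕ)) m) := by
        have h0 : evW w mask (gens.map (·.1) ++ gens.map (·.2.1)) (nthW WA ((g'⁻¹ x : Fin m) : ℕ)) m =
            E (A' (g'⁻¹ x) P0) := by
          have := hAR (g'⁻¹ x) P0
          rwa [← hEP0] at this
        rw [h0, hBR x]
        rfl
      rw [h9, h10]
      exact h7
    -- the exponents agree
    have hy : z ^ n = z ^ (nthN Te x) := by
      by_contra hne
      set y : H0 := z ^ n * (z ^ (nthN Te x))⁻¹ with hy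
      have hy1 : y ≠ 1 := by
        intro h
        exact hne (mul_inv_eq_one.1 h)
      have hyker : y ∈ π.ker := by
        rw [hy]
        exact mul_mem (Subgroup.zpow_mem _ hzker n) (inv_mem (Subgroup.pow_mem _ hzker _))
      obtain ⟨j, hj⟩ := hfiber V ⟨0, hN⟩
      have hw' := hfiber (z ^ (nthN Te x)) j
      obtain ⟨i, hi⟩ := hw'
      have hfix : (y : Equiv.Perm (Fin N ⊕ Fin m)) (Sum.inl i) = Sum.inl i := by
        have h11 : (U : Equiv.Perm (Fin N ⊕ Fin m)) P0 = ((z ^ n : H0) : Equiv.Perm (Fin N ⊕ Fin m)) (Sum.inl j) := by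
          rw [hUeq]
          show ((z ^ n : H0) : Equiv.Perm (Fin N ⊕ Fin m)) ((V : Equiv.Perm (Fin N ⊕ Fin m)) P0) = _
          rw [hj]
        have h12 : (gz ^ (nthN Te x)) ((V : Equiv.Perm (Fin N ⊕ Fin m)) P0) = Sum.inl i := by
          rw [hj, ← hi]
          rfl
        rw [hPU, h12] at h11
        show ((z ^ n : H0) : Equiv.Perm (Fin N ⊕ Fin m)) ((((z ^ (nthN Te x))⁻¹ : H0) : Equiv.Perm (Fin N ⊕ Fin m)) (Sum.inl i)) = _
        have h13 : (((z ^ (nthN Te x))⁻¹ : H0) : Equiv.Perm (Fin N ⊕ Fin m)) (Sum.inl i) = Sum.inl j := by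
          rw [← hi]
          simp
        rw [h13, ← h11]
      have := Fact.mk hk
      let y' : π.ker := ⟨y, hyker⟩
      let z' : π.ker := ⟨z, hzker⟩
      have hy' : y' ≠ 1 := fun h => hy1 (congrArg Subtype.val h)
      obtain ⟨r, hr2⟩ := Subgroup.mem_zpowers_iff.1 (mem_zpowers_of_prime_card hcardker (g := y') (g' := z') hy')
      have hzy : y ^ r = z := congrArg Subtype.val hr2
      have hzfix : (gz : Equiv.Perm (Fin N ⊕ Fin m)) (Sum.inl i) = Sum.inl i := by
        have h14 : ∀ r : ℤ, ((y ^ r : H0) : Equiv.Perm (Fin N ⊕ Fin m)) (Sum.inl i) = Sum.inl i := by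
          intro r
          have h15 : (y : Equiv.Perm (Fin N ⊕ Fin m)) ∈ MulAction.stabilizer (Equiv.Perm (Fin N ⊕ Fin m)) (Sum.inl i : Fin N ⊕ Fin m) := hfix
          have h16 := Subgroup.zpow_mem _ h15 r
          exact h16
        have h17 := h14 r
        rw [hzy] at h17
        exact h17
      exact hzne i hzfix
    rw [hUeq, hy]
  exact exists_stem_of_tables hZ hk ht hr' hcardker hgg' hA hB hzker hz1 (fun x => nthN Te x) hC hsum

end Main

end Cfsg.Agent.Lib.Cores
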